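import Mathlib

set_option autoImplicit false
set_option linter.unusedSectionVars false

namespace Cfsg.Agent.Lib.Helper79.PSL3

variable {F : Type*} [Field F]

/-- An explicit 3 × 3 matrix. -/
def m3 (a b c d e f g h i : F) : Matrix (Fin 3) (Fin 3) F := !![a, b, c; d, e, f; g, h, i]

theorem m3_mul (a b c d e f g h i a' b' c' d' e' f' g' h' i' : F) :
    m3 a b c d e f g h i * m3 a' b' c' d' e' f' g' h' i' =
      m3 (a*a' + b*d' + c*g') (a*b' + b*e' + c*h') (a*c' + b*f' + c*i')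
         (d*a' + e*d' + f*g') (d*b' + e*e' + f*h') (d*c' + e*f' + f*i')
         (g*a' + h*d' + i*g') (g*b' + h*e' + i*h') (g*c' + h*f' + i*i') := by
  unfold m3
  exact Matrix.mul_fin_three ..

theorem m3_det (a b c d e f g h i : F) :
    (m3 a b c d e f g h i).det = a*e*i - a*f*h - b*d*i + b*f*g + c*d*h - c*e*g := by
  unfold m3
  rw [Matrix.det_fin_three]
  simp

theorem m3_eta (M : Matrix (Fin 3) (Fin 3) F) :
    M = m3 (M 0 0) (M 0 1) (M 0 2) (M 1 0) (M 1 1) (M 1 2) (M 2 0) (M 2 1) (M 2 2) :=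
  Matrix.eta_fin_three M

theorem m3_congr {a b c d e f g h i a' b' c' d' e' f' g' h' i' : F}
    (h1 : a = a') (h2 : b = b') (h3 : c = c') (h4 : d = d') (h5 : e = e') (h6 : f = f')
    (h7 : g = g') (h8 : h = h') (h9 : i = i') :
    m3 a b c d e f g h i = m3 a' b' c' d' e' f' g' h' i' := by
  subst h1 h2 h3 h4 h5 h6 h7 h8 h9
  rfl

theorem m3_one : (1 : Matrix (Fin 3) (Fin 3) F) = m3 1 0 0 0 1 0 0 0 1 := by
  unfold m3
  exact Matrix.one_fin_three

theorem m3_00 (a b c d e f g h i : F) : m3 a b c d e f g h i 0 0 = a := rfl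
theorem m3_01 (a b c d e f g h i : F) : m3 a b c d e f g h i 0 1 = b := rfl
theorem m3_02 (a b c d e f g h i : F) : m3 a b c d e f g h i 0 2 = c := rfl
theorem m3_10 (a b c d e f g h i : F) : m3 a b c d e f g h i 1 0 = d := rfl
theorem m3_11 (a b c d e f g h i : F) : m3 a b c d e f g h i 1 1 = e := rfl
theorem m3_12 (a b c d e f g h i : F) : m3 a b c d e f g h i 1 2 = f := rfl
theorem m3_20 (a b c d e f g h i : F) : m3 a b c d e f g h i 2 0 = g := rfl
theorem m3_21 (a b c d e f g h i : F) : m3 a b c d e f g h i 2 1 = h := rfl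
theorem m3_22 (a b c d e f g h i : F) : m3 a b c d e f g h i 2 2 = i := rfl

/-- The companion matrix of `(X - 1)(X² - tX + 1)`. -/
def Xm (t : F) : Matrix (Fin 3) (Fin 3) F := m3 0 0 1 1 0 (-(t+1)) 0 1 (t+1)

/-- `A` is similar to `X`. -/
def Cj (X A : Matrix (Fin 3) (Fin 3) F) : Prop :=
  ∃ P : Matrix (Fin 3) (Fin 3) F, P.det ≠ 0 ∧ A * P = P * X

theorem Cj.conj {X A B P : Matrix (Fin 3) (Fin 3) F} (h : Cj X A) (hP : P.det ≠ 0)
    (hB : B * P = P * A) : Cj X B := by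
  obtain ⟨Q, hQ, hAQ⟩ := h
  refine ⟨P * Q, ?_, ?_⟩
  · rw [Matrix.det_mul]
    exact mul_ne_zero hP hQ
  · rw [← mul_assoc, hB, mul_assoc, hAQ, mul_assoc]

/-- `g` is a product of two matrices similar to `X`. -/
def Fact2 (X g : Matrix (Fin 3) (Fin 3) F) : Prop :=
  ∃ A B : Matrix (Fin 3) (Fin 3) F, g = A * B ∧ Cj X A ∧ Cj X B

theorem Fact2.conj {X g M P : Matrix (Fin 3) (Fin 3) F} (h : Fact2 X M) (hP : P.det ≠ 0)
    (hg : g * P = P * M) : Fact2 X g := by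
  obtain ⟨A, B, rfl, hA, hB⟩ := h
  have hu : IsUnit P.det := isUnit_iff_ne_zero.mpr hP
  refine ⟨P * A * P⁻¹, P * B * P⁻¹, ?_, ?_, ?_⟩
  · have h1 : g = g * P * P⁻¹ := by
      rw [mul_assoc, Matrix.mul_nonsing_inv P hu, mul_one]
    rw [h1, hg]
    simp only [mul_assoc]
    rw [Matrix.nonsing_inv_mul_cancel_left _ _ hu]
  · refine hA.conj hP ?_
    rw [mul_assoc, Matrix.nonsing_inv_mul P hu, mul_one]
  · refine hB.conj hP ?_
    rw [mul_assoc, Matrix.nonsing_inv_mul P hu, mul_one]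


theorem cj_lower (t j11 j12 j21 j22 : F) (htr : j11 + j22 = t)
    (hdet0 : j11 * j22 - j12 * j21 = 1) (hj : j21 ≠ 0) :
    Cj (Xm t) (m3 1 0 0 1 j11 j12 0 j21 j22) := by
  obtain rfl : j22 = t - j11 := by linear_combination htr
  have hdet : j11 * (t - j11) - j12 * j21 = 1 := hdet0
  refine ⟨m3 1 1 1 0 1 (1 + j11) 0 0 j21, ?_, ?_⟩
  · rw [m3_det]
    intro h
    apply hj
    linear_combination h
  · unfold Xm
    rw [m3_mul, m3_mul]
    refine m3_congr ?_ ?_ ?_ ?_ ?_ ?_ ?_ ?_ ?_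
    · ring
    · ring
    · ring
    · ring
    · ring
    · linear_combination (-1) * hdet
    · ring
    · ring
    · ring

theorem cj_upper (t r1 r2 j11 j12 j21 j22 : F) (htr : j11 + j22 = t)
    (hdet0 : j11 * j22 - j12 * j21 = 1) (hj : j21 ≠ 0) (ht : 2 - t ≠ 0) :
    Cj (Xm t) (m3 1 r1 r2 0 j11 j12 0 j21 j22) := by
  obtain rfl : j22 = t - j11 := by linear_combination htr
  have hdet : j11 * (t - j11) - j12 * j21 = 1 := hdet0
  refine ⟨m3 (1 - r1 - j11*r1 - j21*r2 + r1*t) (1 + r1 - j11*r1 - j21*r2) (1 + r1 + j11*r1 + j21*r2 - j11*r1*t - j21*r2*t) (2 - t) (2*j11 - j11*t) (2*j11^2 + 2*j12*j21 - j11^2*t - j12*j21*t) 0 (2*j21 - j21*t) (2*j21*t - j21*t^2), ?_, ?_⟩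
  · rw [m3_det]
    intro h
    apply mul_ne_zero (pow_ne_zero 3 ht) hj
    linear_combination h - (4*j21 - 4*j21*r1 - 4*j21*t - 4*j11*j21*r1 + 8*j21*r1*t + j21*t^2 - 4*j21^2*r2 + 4*j11*j21*r1*t - 5*j21*r1*t^2 + 4*j21^2*r2*t - j11*j21*r1*t^2 + j21*r1*t^3 - j21^2*r2*t^2) * hdet
  · unfold Xm
    rw [m3_mul, m3_mul]
    refine m3_congr ?_ ?_ ?_ ?_ ?_ ?_ ?_ ?_ ?_
    · ring
    · ring
    · linear_combination (-2*r1 + r1*t) * hdet
    · ring
    · ring
    · linear_combination (2 - 2*j11 - t + j11*t) * hdet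
    · ring
    · ring
    · linear_combination (-2*j21 + j21*t) * hdet

theorem famA (t τ σ : F) (ht : 2 - t ≠ 0) :
    Fact2 (Xm t) (m3 0 0 1 1 0 (-σ) 0 1 τ) := by
  have hM : Fact2 (Xm t) (m3 1 (2 - 2*t + τ) (-4 + 4*t - σ + τ - 2*t*τ + τ^2) 1 0 (-3 + 2*t - σ) 0 1 (-1 + τ)) := by
    refine ⟨m3 1 0 0 1 (t - τ) (-1 + t*τ - τ^2) 0 1 τ,
      m3 1 (2 - 2*t + τ) (-4 + 4*t - σ + τ - 2*t*τ + τ^2) 0 (1 - 2*τ + t*τ) (-1 + 2*τ - t*τ - 2*τ^2 + t*τ^2) 0 (2 - t) (-1 + t + 2*τ - t*τ), ?_,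
      cj_lower t _ _ _ _ (by ring) (by ring) one_ne_zero,
      cj_upper t _ _ _ _ _ _ (by ring) (by ring) ht ht⟩
    rw [m3_mul]
    refine m3_congr ?_ ?_ ?_ ?_ ?_ ?_ ?_ ?_ ?_
    · ring
    · ring
    · ring
    · ring
    · ring
    · ring
    · ring
    · ring
    · ring
  refine hM.conj (P := m3 1 (-1) (-2 + 2*t - τ) 0 1 (-1) 0 0 1) ?_ ?_
  · rw [m3_det]
    intro h
    apply one_ne_zero (α := F)
    linear_combination h
  · rw [m3_mul, m3_mul]
    refine m3_congr ?_ ?_ ?_ ?_ ?_ ?_ ?_ ?_ ?_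
    · ring
    · ring
    · ring
    · ring
    · ring
    · ring
    · ring
    · ring
    · ring

theorem famB (t p r qq m mu : F) (h : p * mu = -1) (ht : 2 - t ≠ 0) :
    Fact2 (Xm t) (m3 0 p r 1 qq m 0 0 mu) := by
  have hp : p ≠ 0 := by
    intro hp
    rw [hp, zero_mul] at h
    simp at h
  have hM : Fact2 (Xm t) (m3 1 (-1 + p + qq) (m + t - p*r + 2*p*t + p^2*t) 1 (-1 + qq) (m - p*r + p*t + p^2*t) 0 0 mu) := by
    refine ⟨m3 1 0 0 1 0 (-1) 0 1 t,
      m3 1 (-1 + p + qq) (m + t - p*r + 2*p*t + p^2*t) 0 (-p*t) (mu - t^2 - p*t^2) 0 p (t + p*t), ?_,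
      cj_lower t _ _ _ _ (by ring) (by ring) one_ne_zero,
      cj_upper t _ _ _ _ _ _ (by ring) (by linear_combination (-1) * h) hp ht⟩
    rw [m3_mul]
    refine m3_congr ?_ ?_ ?_ ?_ ?_ ?_ ?_ ?_ ?_
    · ring
    · ring
    · ring
    · ring
    · ring
    · ring
    · ring
    · ring
    · ring
  refine hM.conj (P := m3 1 (-1) (-p*r + p*t + p^2*t) 0 1 0 0 0 1) ?_ ?_
  · rw [m3_det]
    intro h'
    apply one_ne_zero (α := F)
    linear_combination h'
  · rw [m3_mul, m3_mul]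
    refine m3_congr ?_ ?_ ?_ ?_ ?_ ?_ ?_ ?_ ?_
    · ring
    · ring
    · linear_combination (r - t - p*t) * h
    · ring
    · ring
    · ring
    · ring
    · ring
    · ring

theorem famN (t p r qq m n mu : F) (hn : n ≠ 0) (hd : r * n - p * mu = 1) (ht : 2 - t ≠ 0) :
    Fact2 (Xm t) (m3 0 p r 1 qq m 0 n mu) := by
  refine (famA t (mu + qq) (-p - m*n + mu*qq) ht).conj (P := m3 1 0 p 0 1 qq 0 0 n) ?_ ?_
  · rw [m3_det]
    intro h
    apply hn
    linear_combination h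
  · rw [m3_mul, m3_mul]
    refine m3_congr ?_ ?_ ?_ ?_ ?_ ?_ ?_ ?_ ?_
    · ring
    · ring
    · linear_combination (1) * hd
    · ring
    · ring
    · ring
    · ring
    · ring
    · ring

theorem exists_cent (t δ : F) (ht : 2 - t ≠ 0) :
    ∃ Z : Matrix (Fin 3) (Fin 3) F, Z * Xm t = Xm t * Z ∧ Z.det = δ := by
  obtain ⟨k, hk⟩ : ∃ k : F, k * (2 - t) = δ - 1 := ⟨(δ - 1) / (2 - t), div_mul_cancel₀ _ ht⟩
  refine ⟨m3 (1 + k) k k (-k*t) (1 - k*t) (-k*t) k k (1 + k), ?_, ?_⟩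
  · unfold Xm
    rw [m3_mul, m3_mul]
    refine m3_congr ?_ ?_ ?_ ?_ ?_ ?_ ?_ ?_ ?_
    · ring
    · ring
    · ring
    · ring
    · ring
    · ring
    · ring
    · ring
    · ring
  · rw [m3_det]
    linear_combination hk

theorem scalar_eq_m3 (r : F) : Matrix.scalar (Fin 3) r = m3 r 0 0 0 r 0 0 0 r := by
  ext i j
  fin_cases i <;> fin_cases j <;> simp [m3]

theorem exists_indep (g : Matrix (Fin 3) (Fin 3) F) (hns : ∀ r : F, g ≠ m3 r 0 0 0 r 0 0 0 r) :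
    ∃ P : Matrix (Fin 3) (Fin 3) F, P.det ≠ 0 ∧ ∀ k, (g * P) k 0 = P k 1 := by
  by_contra hcon
  push Not at hcon
  obtain ⟨a, b, c, d, e, f, g', h, i, rfl⟩ :
      ∃ a b c d e f g' h i : F, g = m3 a b c d e f g' h i :=
    ⟨_, _, _, _, _, _, _, _, _, m3_eta g⟩
  have H : ∀ x y z w1 w2 w3 : F,
      (m3 x (a*x + b*y + c*z) w1 y (d*x + e*y + f*z) w2 z (g'*x + h*y + i*z) w3).det = 0 := by
    intro x y z w1 w2 w3
    by_contra hdet
    obtain ⟨k, hk⟩ := hcon _ hdet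
    apply hk
    rw [m3_mul]
    fin_cases k <;> rfl
  have hd : d = 0 := by
    have := H 1 0 0 0 0 1
    rw [m3_det] at this
    linear_combination this
  have hg : g' = 0 := by
    have := H 1 0 0 0 1 0
    rw [m3_det] at this
    linear_combination (-1 : F) * this
  have hb : b = 0 := by
    have := H 0 1 0 0 0 1
    rw [m3_det] at this
    linear_combination (-1 : F) * this
  have hh : h = 0 := by
    have := H 0 1 0 1 0 0
    rw [m3_det] at this
    linear_combination this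
  have hf : f = 0 := by
    have := H 0 0 1 1 0 0
    rw [m3_det] at this
    linear_combination (-1 : F) * this
  have hc : c = 0 := by
    have := H 0 0 1 0 1 0
    rw [m3_det] at this
    linear_combination this
  have he : e = a := by
    have := H 1 1 0 0 0 1
    rw [m3_det] at this
    linear_combination this + hb - hd
  have hi : i = a := by
    have := H 0 1 1 1 0 0
    rw [m3_det] at this
    linear_combination this - hh + hf + he
  exact hns a (m3_congr rfl hb hc hd he hf hg hh hi)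

theorem fact2_of_nonscalar (t : F) (ht : 2 - t ≠ 0) (g : Matrix (Fin 3) (Fin 3) F)
    (hdet : g.det = 1) (hns : ∀ r : F, g ≠ m3 r 0 0 0 r 0 0 0 r) : Fact2 (Xm t) g := by
  obtain ⟨P, hP, hcol⟩ := exists_indep g hns
  have hu : IsUnit P.det := isUnit_iff_ne_zero.mpr hP
  obtain ⟨M, hM⟩ : ∃ M : Matrix (Fin 3) (Fin 3) F, M = P⁻¹ * (g * P) := ⟨_, rfl⟩
  have hgP : g * P = P * M := by
    rw [hM, Matrix.mul_nonsing_inv_cancel_left _ _ hu]
  have hM0 : ∀ k, M k 0 = (1 : Matrix (Fin 3) (Fin 3) F) k 1 := by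
    intro k
    rw [← Matrix.nonsing_inv_mul P hu, hM, Matrix.mul_apply, Matrix.mul_apply]
    exact Finset.sum_congr rfl (fun j _ => by rw [hcol j])
  have hdM : M.det = 1 := by
    have h1 := congrArg Matrix.det hgP
    rw [Matrix.det_mul, Matrix.det_mul, hdet, one_mul] at h1
    have h2 : P.det * M.det = P.det * 1 := by rw [mul_one]; exact h1.symm
    exact mul_left_cancel₀ hP h2
  have e00 : M 0 0 = 0 := by rw [hM0]; simp
  have e10 : M 1 0 = 1 := by rw [hM0]; simp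
  have e20 : M 2 0 = 0 := by rw [hM0]; simp
  have hMeq : M = m3 0 (M 0 1) (M 0 2) 1 (M 1 1) (M 1 2) 0 (M 2 1) (M 2 2) := by
    conv_lhs => rw [m3_eta M, e00, e10, e20]
  have hd2 : M 0 2 * M 2 1 - M 0 1 * M 2 2 = 1 := by
    rw [hMeq, m3_det] at hdM
    linear_combination hdM
  refine Fact2.conj ?_ hP hgP
  rw [hMeq]
  by_cases hn : M 2 1 = 0
  · rw [hn]
    refine famB t _ _ _ _ _ ?_ ht
    rw [hn] at hd2
    linear_combination (-1 : F) * hd2
  · exact famN t _ _ _ _ _ _ hn hd2 ht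

theorem sl3_cover (t : F) (ht : 2 - t ≠ 0) (X : Matrix.SpecialLinearGroup (Fin 3) F)
    (hX : X.1 = Xm t) (G : Matrix.SpecialLinearGroup (Fin 3) F)
    (hG : G ∉ Subgroup.center (Matrix.SpecialLinearGroup (Fin 3) F)) :
    ∃ u v : Matrix.SpecialLinearGroup (Fin 3) F, G = u * X * u⁻¹ * (v * X * v⁻¹) := by
  have hns : ∀ r : F, G.1 ≠ m3 r 0 0 0 r 0 0 0 r := by
    intro r hr
    apply hG
    rw [Matrix.SpecialLinearGroup.mem_center_iff]
    refine ⟨r, ?_, ?_⟩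
    · have h1 := G.det_coe
      rw [hr, m3_det] at h1
      simp only [Fintype.card_fin]
      linear_combination h1
    · rw [hr]
      exact scalar_eq_m3 r
  obtain ⟨A, B, hAB, hA, hB⟩ := fact2_of_nonscalar t ht G.1 G.det_coe hns
  have key : ∀ A : Matrix (Fin 3) (Fin 3) F, Cj (Xm t) A →
      ∃ u : Matrix.SpecialLinearGroup (Fin 3) F, (u * X * u⁻¹).1 = A := by
    rintro A ⟨P, hP, hAP⟩
    obtain ⟨Z, hZ, hZd⟩ := exists_cent t (P.det)⁻¹ ht
    have hdet : (P * Z).det = 1 := by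
      rw [Matrix.det_mul, hZd, mul_inv_cancel₀ hP]
    have h1 : A * (P * Z) = (P * Z) * X.1 := by
      rw [hX, ← mul_assoc, hAP, mul_assoc, ← hZ, mul_assoc]
    obtain ⟨u, hu⟩ : ∃ u : Matrix.SpecialLinearGroup (Fin 3) F, u.1 = P * Z := ⟨⟨P * Z, hdet⟩, rfl⟩
    refine ⟨u, ?_⟩
    have h3 : u.1 * (u⁻¹).1 = 1 := by
      rw [← Matrix.SpecialLinearGroup.coe_mul, mul_inv_cancel, Matrix.SpecialLinearGroup.coe_one]
    rw [Matrix.SpecialLinearGroup.coe_mul, Matrix.SpecialLinearGroup.coe_mul, hu, ← h1, ← hu,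
      mul_assoc, h3, mul_one]
  obtain ⟨u, hu⟩ := key A hA
  obtain ⟨v, hv⟩ := key B hB
  refine ⟨u, v, ?_⟩
  apply Subtype.ext
  rw [Matrix.SpecialLinearGroup.coe_mul, hu, hv]
  exact hAB

/-- The companion matrix as an element of `SL₃`. -/
def Xsl (t : F) : Matrix.SpecialLinearGroup (Fin 3) F :=
  ⟨Xm t, by unfold Xm; rw [m3_det]; ring⟩

theorem Xsl_val (t : F) : (Xsl t).1 = Xm t := rfl

theorem Xsl_zero_pow_four : Xsl (0 : F) ^ 4 = 1 := by
  apply Subtype.ext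
  rw [Matrix.SpecialLinearGroup.coe_pow, Matrix.SpecialLinearGroup.coe_one, Xsl_val,
    show (4 : ℕ) = 2 + 2 from rfl, pow_add, pow_two]
  unfold Xm
  rw [m3_mul, m3_mul, m3_one]
  refine m3_congr ?_ ?_ ?_ ?_ ?_ ?_ ?_ ?_ ?_ <;> ring

theorem Xsl_one_pow_three (h2 : (2 : F) = 0) : Xsl (1 : F) ^ 3 = 1 := by
  apply Subtype.ext
  rw [Matrix.SpecialLinearGroup.coe_pow, Matrix.SpecialLinearGroup.coe_one, Xsl_val,
    pow_succ, pow_two]
  unfold Xm
  rw [m3_mul, m3_mul, m3_one]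
  refine m3_congr ?_ ?_ ?_ ?_ ?_ ?_ ?_ ?_ ?_
  · ring
  · linear_combination (1) * h2
  · linear_combination (1) * h2
  · linear_combination (-1) * h2
  · linear_combination (-2) * h2
  · linear_combination (-1) * h2
  · linear_combination (1) * h2
  · linear_combination (1) * h2
  · ring

end Cfsg.Agent.Lib.Helper79.PSL3
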